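import Mathlib
import Cfsg.Agent.Lib.LargeX.ToExtra
import Cfsg.Agent.Lib.Basic.Core

/-!
# Large extraspecial subgroups from a split centralizer

An abstract criterion: if `C_G(z) = Q₀ K` with `Q₀` extraspecial, normal in `C_G(z)`, self-centralizing, `K` a complement
without non-trivial normal 2-subgroups and `z` is not weakly closed in `Q₀`, then `Q₀ = O₂(C_G(z))` is large.
We also show that the special linear and general linear groups over the field with two elements have no
non-trivial normal 2-subgroups.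
-/

set_option autoImplicit false
set_option linter.unusedSimpArgs false
set_option linter.unusedVariables false
set_option linter.unusedSectionVars false
set_option linter.style.haveILetI false

namespace Cfsg.Agent.Lib.ThreeTrans.LGL

open Subgroup Cfsg Cfsg.Agent.Lib.TwoFusion Cfsg.Agent.Lib.LargeX

variable {G : Type*} [Group G]

theorem es_pow_four {Q : Subgroup G} {z : G} (E : ES Q z) {a : G} (ha : a ∈ Q) : a ^ 4 = 1 := by
  have h4 : a ^ 4 = (a * a) * (a * a) := by
    rw [show (4 : ℕ) = 2 + 2 from rfl, pow_add, pow_two]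
  rw [h4]
  rcases E.sq a ha with h | h <;> rw [h]
  · simp
  · exact E.z_sq

/-- The abstract criterion. -/
theorem abstract_large [Finite G] {z : G} {Q₀ K C : Subgroup G} (E : ES Q₀ z)
    (hne : ∃ a ∈ Q₀, ∃ b ∈ Q₀, a * b ≠ b * a) (hC : ∀ g, g ∈ C ↔ g * z = z * g)
    (hn : ∀ c ∈ C, ∀ q ∈ Q₀, c * q * c⁻¹ ∈ Q₀) (hKC : K ≤ C)
    (hdec : ∀ c ∈ C, ∃ q ∈ Q₀, ∃ k ∈ K, c = q * k)
    (hK : ∀ P : Subgroup ↥K, P.Normal → IsPGroup 2 P → P = ⊥)
    (hself : Subgroup.centralizer (Q₀ : Set G) ≤ Q₀)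
    (g : G) (hg : g * z * g⁻¹ ∈ Q₀) (hg' : g * z * g⁻¹ ≠ z) :
    (pCore 2 ↥C).map C.subtype = Q₀ ∧ IsExtraspecial 2 ↥Q₀ ∧ IsLargeExtraspecial Q₀ ∧ Q₀ ⊔ K = C := by
  haveI : Fact (Nat.Prime 2) := ⟨Nat.prime_two⟩
  have hQC : Q₀ ≤ C := fun q hq => (hC q).2 (E.z_central q hq)
  have hE := ES.isExtraspecial E hne
  have hcore : (pCore 2 ↥C).map C.subtype = Q₀ := by
    apply le_antisymm
    swap
    · -- `Q₀ ≤ O₂(C)`
      have hnorm : (Q₀.subgroupOf C).Normal := by
        constructor
        intro x hx y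
        rw [Subgroup.mem_subgroupOf] at hx ⊢
        exact hn y.1 y.2 x.1 hx
      have hp : IsPGroup 2 ↥(Q₀.subgroupOf C) := by
        intro x
        refine ⟨2, ?_⟩
        apply Subtype.ext
        apply Subtype.ext
        have hx : (x.1.1 : G) ∈ Q₀ := x.2
        have := es_pow_four E hx
        simpa using this
      have hle := Cfsg.Agent.Lib.Basic.le_pCore hnorm hp
      intro q hq
      exact ⟨⟨q, hQC hq⟩, hle hq, rfl⟩
    · have hnorm : (pCore 2 ↥C).Normal := inferInstance
      have hQle : ∀ q (hq : q ∈ Q₀), (⟨q, hQC hq⟩ : ↥C) ∈ pCore 2 ↥C := by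
        have hnorm' : (Q₀.subgroupOf C).Normal := by
          constructor
          intro x hx y
          rw [Subgroup.mem_subgroupOf] at hx ⊢
          exact hn y.1 y.2 x.1 hx
        have hp : IsPGroup 2 ↥(Q₀.subgroupOf C) := by
          intro x
          refine ⟨2, ?_⟩
          apply Subtype.ext
          apply Subtype.ext
          have hx : (x.1.1 : G) ∈ Q₀ := x.2
          have := es_pow_four E hx
          simpa using this
        have hle := Cfsg.Agent.Lib.Basic.le_pCore hnorm' hp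
        intro q hq
        exact hle (show (⟨q, hQC hq⟩ : ↥C) ∈ Q₀.subgroupOf C from hq)
      let P : Subgroup ↥K := ((pCore 2 ↥C).map C.subtype).comap K.subtype
      have hPn : P.Normal := by
        constructor
        rintro ⟨x, hxK⟩ hx ⟨y, hyK⟩
        obtain ⟨x', hx', e⟩ := hx
        refine ⟨⟨y, hKC hyK⟩ * x' * ⟨y, hKC hyK⟩⁻¹, hnorm.conj_mem _ hx' _, ?_⟩
        have e' : (x' : G) = x := e
        simp [e']
      have hPp : IsPGroup 2 ↥P := by
        rintro ⟨⟨x, hxK⟩, hx⟩
        obtain ⟨x', hx', e⟩ := hx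
        have e' : (x' : G) = x := e
        obtain ⟨t, ht⟩ := Cfsg.Agent.Lib.Basic.pCore_isPGroup (G := ↥C) 2 ⟨x', hx'⟩
        refine ⟨t, ?_⟩
        apply Subtype.ext
        apply Subtype.ext
        have h1 := congrArg (fun w : ↥(pCore 2 ↥C) => ((w : ↥C) : G)) ht
        simp only [Subgroup.coe_pow, Subgroup.coe_one] at h1
        rw [e'] at h1
        simpa using h1
      have hP := hK P hPn hPp
      rintro c ⟨⟨c', hc'⟩, hcO, rfl⟩
      obtain ⟨q, hq, k, hk, e⟩ := hdec c' hc'
      have hkO : (⟨k, hk⟩ : ↥K) ∈ P := by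
        refine ⟨⟨q, hQC hq⟩⁻¹ * ⟨c', hc'⟩, mul_mem (inv_mem (hQle q hq)) hcO, ?_⟩
        simp [e]
      rw [hP] at hkO
      have hk1 : k = 1 := congrArg Subtype.val ((Subgroup.mem_bot).1 hkO)
      show c' ∈ Q₀
      rw [e, hk1, mul_one]
      exact hq
  have hsup : Q₀ ⊔ K = C := by
    apply le_antisymm (sup_le hQC hKC)
    intro c hc
    obtain ⟨q, hq, k, hk, rfl⟩ := hdec c hc
    exact mul_mem (Subgroup.mem_sup_left hq) (Subgroup.mem_sup_right hk)
  have hzd : ∀ a, a ∈ Zd Q₀ ↔ a = 1 ∨ a = z := by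
    intro a
    constructor
    · rintro ⟨y, hy, rfl⟩
      apply E.center y.1 y.2
      intro q hq
      have := Subgroup.mem_center_iff.1 hy ⟨q, hq⟩
      exact congrArg Subtype.val this
    · rintro (rfl | rfl)
      · exact one_mem _
      · refine ⟨⟨a, E.z_mem⟩, Subgroup.mem_center_iff.2 ?_, rfl⟩
        rintro ⟨q, hq⟩
        exact Subtype.ext (E.z_central q hq)
  have hL2 : Subgroup.centralizer (Q₀ : Set G) = Zd Q₀ := by
    apply le_antisymm
    · intro x hx
      refine ⟨⟨x, hself hx⟩, Subgroup.mem_center_iff.2 ?_, rfl⟩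
      rintro ⟨q, hq⟩
      apply Subtype.ext
      exact Subgroup.mem_centralizer_iff.1 hx q hq
    · intro x hx
      rw [Subgroup.mem_centralizer_iff]
      intro q hq
      rcases (hzd x).1 hx with rfl | rfl
      · simp
      · exact E.z_central q hq
  have hL3 : Subgroup.centralizer (Zd Q₀ : Set G) ≤ Subgroup.normalizer (Q₀ : Set G) := by
    intro c hc
    have hcz : c * z = z * c := by
      have := Subgroup.mem_centralizer_iff.1 hc z ((hzd z).2 (Or.inr rfl))
      exact this.symm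
    exact mem_normalizer_of_map_le (fun q hq => hn c ((hC c).2 hcz) q hq)
  have hg1 : g ∉ Subgroup.normalizer (Zd Q₀ : Set G) := by
    intro hgn
    have h1 : g * z * g⁻¹ ∈ Zd Q₀ := (Subgroup.mem_normalizer_iff.1 hgn z).1 ((hzd z).2 (Or.inr rfl))
    rcases (hzd _).1 h1 with h2 | h2
    · apply E.z_ne
      have : g⁻¹ * (g * z * g⁻¹) * g = 1 := by rw [h2]; group
      rwa [show g⁻¹ * (g * z * g⁻¹) * g = z by group] at this
    · exact hg' h2
  have hZg : Cj g (Zd Q₀) ≤ Q₀ := by
    rintro a ⟨b, hb, rfl⟩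
    rcases (hzd b).1 hb with rfl | rfl
    · simp
    · exact hg
  exact ⟨hcore, hE, (weakly_not_closed hE hL2 hL3 g hg1 hZg).2.2, hsup⟩

/-! ### Linear groups over the field with two elements -/

open Matrix

variable {n : Type} [Fintype n] [DecidableEq n]

/-- Invertible matrices over `F₂` have determinant one. -/
theorem det_eq_one_of_mul {A B : Matrix n n (ZMod 2)} (h : A * B = 1) : A.det = 1 := by
  have h1 : A.det * B.det = 1 := by rw [← Matrix.det_mul, h, Matrix.det_one]
  have key : ∀ x y : ZMod 2, x * y = 1 → x = 1 := by decide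
  exact key _ _ h1

theorem z2_cases : ∀ x : ZMod 2, x = 0 ∨ x = 1 := by decide

/-- `SL` is transitive on non-zero vectors over the field with two elements. -/
theorem exists_move {x y : n → ZMod 2} (hx : x ≠ 0) (hy : y ≠ 0) :
    ∃ g : Matrix.SpecialLinearGroup n (ZMod 2), (g : Matrix n n (ZMod 2)) *ᵥ x = y := by
  by_cases hxy : x = y
  · exact ⟨1, by simp [hxy]⟩
  obtain ⟨i, hi⟩ := Function.ne_iff.1 hx
  obtain ⟨j, hj⟩ := Function.ne_iff.1 hy
  have hxi : x i = 1 := (z2_cases _).resolve_left hi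
  have hyj : y j = 1 := (z2_cases _).resolve_left hj
  obtain ⟨φ, hφx, hφy⟩ : ∃ φ : n → ZMod 2, φ ⬝ᵥ x = 1 ∧ φ ⬝ᵥ y = 1 := by
    by_cases h1 : y i = 1
    · refine ⟨Pi.single i 1, ?_, ?_⟩
      · simp [hxi]
      · simp [h1]
    by_cases h2 : x j = 1
    · refine ⟨Pi.single j 1, ?_, ?_⟩
      · simp [h2]
      · simp [hyj]
    have h1' : y i = 0 := (z2_cases _).resolve_right h1
    have h2' : x j = 0 := (z2_cases _).resolve_right h2
    refine ⟨Pi.single i 1 + Pi.single j 1, ?_, ?_⟩
    · rw [add_dotProduct]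
      simp [hxi, h2']
    · rw [add_dotProduct]
      simp [h1', hyj]
  have hadd : ∀ a : ZMod 2, a + a = 0 := by decide
  have hvadd : ∀ v : n → ZMod 2, v + v = 0 := by
    intro v; funext k; exact hadd _
  let T : Matrix n n (ZMod 2) := 1 + Matrix.vecMulVec (x + y) φ
  have hT : ∀ v, T *ᵥ v = v + (φ ⬝ᵥ v) • (x + y) := by
    intro v
    simp only [T, Matrix.add_mulVec, Matrix.one_mulVec]
    congr 1
    rw [Matrix.vecMulVec_mulVec]
    funext k
    simp [mul_comm]
    ring
  have hφxy : φ ⬝ᵥ (x + y) = 0 := by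
    rw [dotProduct_add, hφx, hφy]
    exact hadd _
  have hTT : T * T = 1 := by
    apply Matrix.mulVec_injective
    funext v
    rw [← Matrix.mulVec_mulVec, Matrix.one_mulVec, hT v, hT, dotProduct_add, dotProduct_smul, hφxy]
    simp only [smul_eq_mul, mul_zero, add_zero]
    rw [add_assoc, hvadd, add_zero]
  have hdet : T.det = 1 := det_eq_one_of_mul hTT
  refine ⟨⟨T, hdet⟩, ?_⟩
  show T *ᵥ x = y
  rw [hT, hφx, one_smul]
  calc x + (x + y) = (x + x) + y := by rw [add_assoc]
    _ = y := by rw [hvadd, zero_add]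

/-- A normal 2-subgroup of `SL` over the field with two elements is trivial. -/
theorem sl_no_normal2 (P : Subgroup (Matrix.SpecialLinearGroup n (ZMod 2))) (hPn : P.Normal) (hP : IsPGroup 2 P) :
    P = ⊥ := by
  haveI : Fact (Nat.Prime 2) := ⟨Nat.prime_two⟩
  classical
  letI act : MulAction ↥P (n → ZMod 2) :=
    { smul := fun A v => ((A : Matrix.SpecialLinearGroup n (ZMod 2)) : Matrix n n (ZMod 2)) *ᵥ v
      one_smul := fun v => by
        show ((1 : Matrix.SpecialLinearGroup n (ZMod 2)) : Matrix n n (ZMod 2)) *ᵥ v = v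
        simp
      mul_smul := fun A B v => by
        show (((A * B : ↥P) : Matrix.SpecialLinearGroup n (ZMod 2)) : Matrix n n (ZMod 2)) *ᵥ v = _ *ᵥ (_ *ᵥ v)
        simp [Matrix.mulVec_mulVec] }
  rw [eq_bot_iff]
  intro A hA
  rw [Subgroup.mem_bot]
  by_contra hne
  have hne' : (A : Matrix n n (ZMod 2)) ≠ 1 := by
    intro h
    exact hne (Subtype.ext h)
  -- a non-fixed vector
  obtain ⟨w, hw⟩ : ∃ w : n → ZMod 2, (A : Matrix n n (ZMod 2)) *ᵥ w ≠ w := by
    by_contra hcon
    push Not at hcon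
    apply hne'
    apply Matrix.mulVec_injective
    funext v
    rw [hcon v, Matrix.one_mulVec]
  have hw0 : w ≠ 0 := by
    rintro rfl
    exact hw (by simp)
  obtain ⟨i, hi⟩ := Function.ne_iff.1 hw0
  haveI : Nonempty n := ⟨i⟩
  have hcard : 2 ∣ Nat.card (n → ZMod 2) := by
    rw [Nat.card_eq_fintype_card, Fintype.card_fun, ZMod.card]
    exact dvd_pow_self 2 Fintype.card_ne_zero
  have h0 : (0 : n → ZMod 2) ∈ MulAction.fixedPoints ↥P (n → ZMod 2) := by
    intro B
    show ((B : Matrix.SpecialLinearGroup n (ZMod 2)) : Matrix n n (ZMod 2)) *ᵥ 0 = 0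
    simp
  obtain ⟨b, hb, hb0⟩ := hP.exists_fixed_point_of_prime_dvd_card_of_fixed_point (n → ZMod 2) hcard h0
  obtain ⟨g, hg⟩ := exists_move (x := b) (y := w) (Ne.symm hb0) hw0
  have hconj : g⁻¹ * A * g ∈ P := by
    have := hPn.conj_mem A hA g⁻¹
    rwa [inv_inv] at this
  have hfix : ((g⁻¹ * A * g : Matrix.SpecialLinearGroup n (ZMod 2)) : Matrix n n (ZMod 2)) *ᵥ b = b :=
    hb ⟨_, hconj⟩
  apply hw
  rw [← hg, Matrix.mulVec_mulVec]
  have hmul : (g : Matrix n n (ZMod 2)) * ((g⁻¹ * A * g : Matrix.SpecialLinearGroup n (ZMod 2)) : Matrix n n (ZMod 2)) =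
      ((A : Matrix n n (ZMod 2))) * (g : Matrix n n (ZMod 2)) := by
    have e : g * (g⁻¹ * A * g) = A * g := by group
    rw [← Matrix.SpecialLinearGroup.coe_mul, ← Matrix.SpecialLinearGroup.coe_mul, e]
  rw [← hmul, ← Matrix.mulVec_mulVec, hfix]

/-- The special linear and general linear groups over the field with two elements coincide. -/
noncomputable def slEquivGL : Matrix.SpecialLinearGroup n (ZMod 2) ≃* Matrix.GeneralLinearGroup n (ZMod 2) :=
  MulEquiv.ofBijective (Matrix.SpecialLinearGroup.toGL) (by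
    constructor
    · intro a b hab
      apply Subtype.ext
      exact congrArg (fun g : Matrix.GeneralLinearGroup n (ZMod 2) => (g : Matrix n n (ZMod 2))) hab
    · intro g
      have hd : ((g : Matrix n n (ZMod 2))).det = 1 := det_eq_one_of_mul (B := ((g⁻¹ : Matrix.GeneralLinearGroup n (ZMod 2)) : Matrix n n (ZMod 2))) (by
        exact g.mul_inv)
      refine ⟨⟨g, hd⟩, ?_⟩
      apply Units.ext
      rfl)

/-- Transport of the property along an isomorphism. -/
theorem no_normal2_of_equiv {X Y : Type*} [Group X] [Group Y] (e : X ≃* Y)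
    (h : ∀ P : Subgroup Y, P.Normal → IsPGroup 2 P → P = ⊥) :
    ∀ P : Subgroup X, P.Normal → IsPGroup 2 P → P = ⊥ := by
  intro P hPn hP
  have h1 : (P.map e.toMonoidHom).Normal := hPn.map _ e.surjective
  have h2 : IsPGroup 2 ↥(P.map e.toMonoidHom) := hP.map _
  have h3 := h _ h1 h2
  rw [eq_bot_iff]
  intro x hx
  have h4 : e x ∈ P.map e.toMonoidHom := ⟨x, hx, rfl⟩
  rw [h3, Subgroup.mem_bot] at h4
  rw [Subgroup.mem_bot]
  exact e.injective (by rw [h4, map_one])

/-- A normal 2-subgroup of `GL` over the field with two elements is trivial. -/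
theorem gl_no_normal2 (P : Subgroup (Matrix.GeneralLinearGroup n (ZMod 2))) (hPn : P.Normal) (hP : IsPGroup 2 P) :
    P = ⊥ :=
  no_normal2_of_equiv (slEquivGL (n := n)).symm (fun Q hQ hQ' => sl_no_normal2 Q hQ hQ') P hPn hP

end Cfsg.Agent.Lib.ThreeTrans.LGL
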