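import Mathlib
import Cfsg.Agent.Lib.ThreeTrans.LargeGL

/-!
# Split data for a large extraspecial subgroup, and conjugation
-/

set_option autoImplicit false
set_option linter.unusedSimpArgs false
set_option linter.unusedVariables false
set_option linter.unusedSectionVars false
set_option linter.style.haveILetI false

namespace Cfsg.Agent.Lib.ThreeTrans.LGL

open Subgroup Cfsg Cfsg.Agent.Lib.TwoFusion Cfsg.Agent.Lib.LargeX

variable {G : Type*} [Group G]

/-- The data of the abstract criterion. -/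
structure SplitData (z : G) (Q K : Subgroup G) : Prop where
  es : ES Q z
  hne : ∃ a ∈ Q, ∃ b ∈ Q, a * b ≠ b * a
  hn : ∀ c, c * z = z * c → ∀ q ∈ Q, c * q * c⁻¹ ∈ Q
  hKC : ∀ k ∈ K, k * z = z * k
  hdec : ∀ c, c * z = z * c → ∃ q ∈ Q, ∃ k ∈ K, c = q * k
  hK : ∀ P : Subgroup ↥K, P.Normal → IsPGroup 2 P → P = ⊥
  hself : Subgroup.centralizer (Q : Set G) ≤ Q
  hg : ∃ g, g * z * g⁻¹ ∈ Q ∧ g * z * g⁻¹ ≠ z
  hQK : Q ⊓ K = ⊥

/-- The conjugation map. -/
abbrev cjm (a : G) : G →* G := (MulAut.conj a).toMonoidHom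

theorem cjm_apply (a x : G) : cjm a x = a * x * a⁻¹ := rfl

theorem cjm_inj (a : G) : Function.Injective (cjm a) := (MulAut.conj a).injective

theorem mem_map_cjm {a x : G} {L : Subgroup G} : x ∈ L.map (cjm a) ↔ a⁻¹ * x * a ∈ L := by
  constructor
  · rintro ⟨y, hy, rfl⟩
    have e : a⁻¹ * (cjm a y) * a = y := by
      rw [cjm_apply]; group
    rwa [e]
  · intro h
    refine ⟨_, h, ?_⟩
    rw [cjm_apply]; group

theorem SplitData.conj {z : G} {Q K : Subgroup G} (h : SplitData z Q K) (a : G) :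
    SplitData (a * z * a⁻¹) (Q.map (cjm a)) (K.map (cjm a)) := by
  have hcomm : ∀ c, c * (a * z * a⁻¹) = (a * z * a⁻¹) * c → (a⁻¹ * c * a) * z = z * (a⁻¹ * c * a) := by
    intro c hc
    have e1 : (a⁻¹ * c * a) * z = a⁻¹ * (c * (a * z * a⁻¹)) * a := by group
    have e2 : z * (a⁻¹ * c * a) = a⁻¹ * ((a * z * a⁻¹) * c) * a := by group
    rw [e1, e2, hc]
  have hcomm' : ∀ c, c * z = z * c → (a * c * a⁻¹) * (a * z * a⁻¹) = (a * z * a⁻¹) * (a * c * a⁻¹) := by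
    intro c hc
    have e1 : (a * c * a⁻¹) * (a * z * a⁻¹) = a * (c * z) * a⁻¹ := by group
    have e2 : (a * z * a⁻¹) * (a * c * a⁻¹) = a * (z * c) * a⁻¹ := by group
    rw [e1, e2, hc]
  have hmap : ∀ {x} {L : Subgroup G}, x ∈ L → a * x * a⁻¹ ∈ L.map (cjm a) := fun {x} {L} hx => ⟨x, hx, rfl⟩
  have hinv : ∀ x : G, a⁻¹ * (a * x * a⁻¹) * a = x := by intro x; group
  have hconj2 : ∀ x y : G, (a * x * a⁻¹) * (a * y * a⁻¹) = a * (x * y) * a⁻¹ := by intro x y; group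
  have hcinv : ∀ x : G, (a * x * a⁻¹)⁻¹ = a * x⁻¹ * a⁻¹ := by intro x; group
  have hcone : ∀ {x : G}, a * x * a⁻¹ = 1 → x = 1 := by
    intro x hx
    have : x = a⁻¹ * (a * x * a⁻¹) * a := (hinv x).symm
    rw [this, hx]; group
  refine ⟨⟨hmap h.es.z_mem, ?_, ?_, ?_, ?_, ?_, ?_⟩, ?_, ?_, ?_, ?_, ?_, ?_, ?_, ?_⟩
  · intro e
    exact h.es.z_ne (hcone e)
  · rw [hconj2, h.es.z_sq]; group
  · rintro _ ⟨q, hq, rfl⟩
    rw [cjm_apply, hconj2, hconj2, h.es.z_central q hq]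
  · rintro _ ⟨p, hp, rfl⟩ _ ⟨q, hq, rfl⟩
    simp only [cjm_apply]
    rw [hconj2, hcinv, hconj2, hcinv, hconj2]
    rcases h.es.comm p hp q hq with e | e
    · left
      rw [e]; group
    · right
      rw [e]
  · rintro _ ⟨p, hp, rfl⟩
    simp only [cjm_apply]
    rw [hconj2]
    rcases h.es.sq p hp with e | e
    · left
      rw [e]; group
    · right
      rw [e]
  · rintro _ ⟨x, hx, rfl⟩ hc
    simp only [cjm_apply] at hc ⊢
    have : x = 1 ∨ x = z := by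
      apply h.es.center x hx
      intro q hq
      have h1 := hc (a * q * a⁻¹) (hmap hq)
      rw [hconj2, hconj2] at h1
      have h2 := congrArg (fun w => a⁻¹ * w * a) h1
      simpa only [hinv] using h2
    rcases this with rfl | rfl
    · left; group
    · right; rfl
  · obtain ⟨p, hp, q, hq, hpq⟩ := h.hne
    refine ⟨_, hmap hp, _, hmap hq, ?_⟩
    rw [hconj2, hconj2]
    intro e
    have h2 := congrArg (fun w => a⁻¹ * w * a) e
    simp only [hinv] at h2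
    exact hpq h2
  · intro c hc q hq
    rw [mem_map_cjm] at hq ⊢
    have h1 := h.hn _ (hcomm c hc) _ hq
    have e : a⁻¹ * (c * q * c⁻¹) * a = (a⁻¹ * c * a) * (a⁻¹ * q * a) * (a⁻¹ * c * a)⁻¹ := by group
    rwa [e]
  · rintro _ ⟨k, hk, rfl⟩
    exact hcomm' k (h.hKC k hk)
  · intro c hc
    obtain ⟨q, hq, k, hk, e⟩ := h.hdec _ (hcomm c hc)
    refine ⟨_, hmap hq, _, hmap hk, ?_⟩
    rw [hconj2, ← e]
    group
  · have e := (((K.equivMapOfInjective (cjm a) (cjm_inj a)))).symm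
    exact no_normal2_of_equiv e h.hK
  · intro x hx
    rw [mem_map_cjm]
    apply h.hself
    rw [Subgroup.mem_centralizer_iff]
    intro q hq
    have h1 := Subgroup.mem_centralizer_iff.1 hx (a * q * a⁻¹) (hmap hq)
    have h2 := congrArg (fun w => a⁻¹ * w * a) h1
    have e1 : a⁻¹ * (a * q * a⁻¹ * x) * a = q * (a⁻¹ * x * a) := by group
    have e2 : a⁻¹ * (x * (a * q * a⁻¹)) * a = (a⁻¹ * x * a) * q := by group
    simp only [e1, e2] at h2
    exact h2
  · obtain ⟨g, hg, hg'⟩ := h.hg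
    refine ⟨a * g * a⁻¹, ?_, ?_⟩
    · have e : (a * g * a⁻¹) * (a * z * a⁻¹) * (a * g * a⁻¹)⁻¹ = a * (g * z * g⁻¹) * a⁻¹ := by group
      rw [e]
      exact hmap hg
    · have e : (a * g * a⁻¹) * (a * z * a⁻¹) * (a * g * a⁻¹)⁻¹ = a * (g * z * g⁻¹) * a⁻¹ := by group
      rw [e]
      intro h2
      have h3 := congrArg (fun w => a⁻¹ * w * a) h2
      simp only [hinv] at h3
      exact hg' h3
  · rw [eq_bot_iff]
    rintro _ ⟨⟨p, hp, rfl⟩, ⟨q, hq, e⟩⟩
    have e' : q = p := cjm_inj a e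
    subst e'
    have : q ∈ Q ⊓ K := ⟨hp, hq⟩
    rw [h.hQK, Subgroup.mem_bot] at this
    rw [this]
    simp

/-- The conclusion. -/
theorem SplitData.conclude [Finite G] {z : G} {Q K : Subgroup G} (h : SplitData z Q K)
    (C : Subgroup G) (hC : ∀ g, g ∈ C ↔ g * z = z * g) :
    (pCore 2 ↥C).map C.subtype = Q ∧ IsExtraspecial 2 ↥Q ∧ IsLargeExtraspecial Q ∧ Q ⊔ K = C ∧ K ≤ C := by
  obtain ⟨g, hg, hg'⟩ := h.hg
  have hKC : K ≤ C := fun k hk => (hC k).2 (h.hKC k hk)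
  obtain ⟨h1, h2, h3, h4⟩ := abstract_large h.es h.hne hC (fun c hc q hq => h.hn c ((hC c).1 hc) q hq) hKC
    (fun c hc => h.hdec c ((hC c).1 hc)) h.hK h.hself g hg hg'
  exact ⟨h1, h2, h3, h4, hKC⟩

end Cfsg.Agent.Lib.ThreeTrans.LGL
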