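import Mathlib
import Cfsg.Prelude.Def_KGroupFacts
import Cfsg.Agent.Lib.ThreeTrans.ExtraTypes

/-!
# The outer automorphism group of an extraspecial 2-group

`Out(E)` is the isometry group of the quadratic form on `E / Z(E)`.  All is done on the explicit models `TE s`.
-/

set_option autoImplicit false
set_option linter.style.haveILetI false
set_option linter.unusedSimpArgs false

namespace Cfsg.Agent.Lib.ThreeTrans.ES2

open Cfsg Matrix

/-! ### A quadratic refinement of an alternating form -/

section gamma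

variable {n : ℕ}

/-- A twisted abelian group. -/
@[ext] structure XX (D : (Fin n → P) → (Fin n → P) → ZMod 2) where
  v : Fin n → P
  a : ZMod 2

variable {D : (Fin n → P) → (Fin n → P) → ZMod 2}

theorem v_add_self (v : Fin n → P) : v + v = 0 := by
  funext i
  exact add_self_P _

theorem v_neg (v : Fin n → P) : -v = v := by
  funext i
  exact neg_P _

/-- The existence of a function whose polar form is a given alternating form. -/
theorem exists_gamma (hl : ∀ u v w, D (u + v) w = D u w + D v w) (hr : ∀ u v w, D u (v + w) = D u v + D u w)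
    (hs : ∀ v w, D v w = D w v) (ha : ∀ v, D v v = 0) :
    ∃ γ : (Fin n → P) → ZMod 2, ∀ v w, γ (v + w) = γ v + γ w + D v w := by
  have h0l : ∀ w, D 0 w = 0 := by
    intro w
    have := hl 0 0 w
    rw [add_zero] at this
    have h2 : ∀ a : ZMod 2, a = a + a → a = 0 := by decide
    exact h2 _ this
  have h0r : ∀ w, D w 0 = 0 := fun w => by rw [hs, h0l]
  letI iAdd : Add (XX D) := ⟨fun x y => ⟨x.v + y.v, x.a + y.a + D x.v y.v⟩⟩
  letI iZero : Zero (XX D) := ⟨⟨0, 0⟩⟩
  letI iNeg : Neg (XX D) := ⟨fun x => ⟨x.v, x.a⟩⟩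
  letI iG : AddGroup (XX D) := AddGroup.ofLeftAxioms
    (by
      intro x y z
      apply XX.ext
      · exact add_assoc _ _ _
      · show x.a + y.a + D x.v y.v + z.a + D (x.v + y.v) z.v = x.a + (y.a + z.a + D y.v z.v) + D x.v (y.v + z.v)
        rw [hl, hr]
        ring)
    (by
      intro x
      apply XX.ext
      · exact zero_add _
      · show (0 : ZMod 2) + x.a + D 0 x.v = x.a
        rw [h0l, zero_add, add_zero])
    (by
      intro x
      apply XX.ext
      · exact v_add_self _
      · show x.a + x.a + D x.v x.v = 0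
        rw [ha, z2_add_self, add_zero])
  letI inst : AddCommGroup (XX D) :=
    { iG with
      add_comm := by
        intro x y
        apply XX.ext
        · exact add_comm _ _
        · show x.a + y.a + D x.v y.v = y.a + x.a + D y.v x.v
          rw [hs x.v y.v]
          ring }
  have htwo : ∀ x : XX D, 2 • x = 0 := by
    intro x
    rw [two_nsmul]
    apply XX.ext
    · exact v_add_self _
    · show x.a + x.a + D x.v x.v = 0
      rw [ha, z2_add_self, add_zero]
  letI : Module (ZMod 2) (XX D) := AddCommGroup.zmodModule htwo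
  let π₀ : XX D →+ (Fin n → P) :=
    { toFun := XX.v
      map_zero' := rfl
      map_add' := fun _ _ => rfl }
  let π : XX D →ₗ[ZMod 2] (Fin n → P) := π₀.toZModLinearMap 2
  have hπ : LinearMap.range π = ⊤ := by
    rw [LinearMap.range_eq_top]
    intro v
    exact ⟨⟨v, 0⟩, rfl⟩
  obtain ⟨σ, hσ⟩ := LinearMap.exists_rightInverse_of_surjective π hπ
  have hσv : ∀ v, (σ v).v = v := fun v => LinearMap.congr_fun hσ v
  refine ⟨fun v => (σ v).a, fun v w => ?_⟩
  have h1 : σ (v + w) = σ v + σ w := map_add σ v w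
  have h2 : (σ (v + w)).a = (σ v).a + (σ w).a + D (σ v).v (σ w).v := by
    rw [h1]; rfl
  show (σ (v + w)).a = (σ v).a + (σ w).a + D v w
  rw [h2, hσv, hσv]

end gamma

/-! ### Automorphisms of the models -/

section aut

variable {n : ℕ} {s : Fin n → Bool}

theorem mk_mul_central (x : TE s) (a : ZMod 2) : x * ⟨0, a⟩ = ⟨x.v, x.a + a⟩ := by
  apply TE.ext
  · show x.v + 0 = x.v
    rw [add_zero]
  · show x.a + a + beta s x.v 0 = x.a + a
    rw [beta_zero_r, add_zero]

theorem central_of_v (a : ZMod 2) (t : TE s) : t * ⟨0, a⟩ = ⟨0, a⟩ * t := by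
  apply TE.ext
  · show t.v + 0 = 0 + t.v
    rw [add_zero, zero_add]
  · show t.a + a + beta s t.v 0 = a + t.a + beta s 0 t.v
    rw [beta_zero_l, beta_zero_r, add_comm t.a]

/-- Automorphisms fix the central element. -/
theorem phi_zz (φ : MulAut (TE s)) : φ (zz s) = zz s := by
  have hc : ∀ t : TE s, t * φ (zz s) = φ (zz s) * t := by
    intro t
    obtain ⟨u, rfl⟩ := φ.surjective t
    rw [← map_mul, ← map_mul, zz_central]
  rcases central_cases s _ hc with h | h
  · exfalso
    apply zz_ne s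
    apply φ.injective
    rw [h, map_one]
  · exact h

theorem phi_central (φ : MulAut (TE s)) (a : ZMod 2) : φ ⟨0, a⟩ = ⟨0, a⟩ := by
  rcases z2_cases a with rfl | rfl
  · exact map_one φ
  · exact phi_zz φ

/-- The map induced on the quotient by the centre. -/
def bar (φ : MulAut (TE s)) (v : Fin n → P) : Fin n → P := (φ ⟨v, 0⟩).v

theorem phi_mk (φ : MulAut (TE s)) (v : Fin n → P) (a : ZMod 2) : φ ⟨v, a⟩ = ⟨bar φ v, (φ ⟨v, 0⟩).a + a⟩ := by
  have h : (⟨v, a⟩ : TE s) = ⟨v, 0⟩ * ⟨0, a⟩ := by
    rw [mk_mul_central, zero_add]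
  rw [h, map_mul, phi_central, mk_mul_central]
  rfl

theorem bar_add (φ : MulAut (TE s)) (v w : Fin n → P) : bar φ (v + w) = bar φ v + bar φ w := by
  have h : (⟨v + w, 0⟩ : TE s) = ⟨v, 0⟩ * ⟨w, 0⟩ * ⟨0, beta s v w⟩ := by
    rw [mk_mul_central]
    apply TE.ext
    · rfl
    · show (0 : ZMod 2) = (0 + 0 + beta s v w) + beta s v w
      rw [zero_add, zero_add, z2_add_self]
  show (φ ⟨v + w, 0⟩).v = (φ ⟨v, 0⟩).v + (φ ⟨w, 0⟩).v
  rw [h, map_mul, map_mul, phi_central, mk_mul_central]
  rfl

theorem bar_one (v : Fin n → P) : bar (1 : MulAut (TE s)) v = v := rfl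

theorem bar_mul (φ ψ : MulAut (TE s)) (v : Fin n → P) : bar (φ * ψ) v = bar φ (bar ψ v) := by
  show (φ (ψ ⟨v, 0⟩)).v = (φ ⟨bar ψ v, 0⟩).v
  have h : ψ ⟨v, 0⟩ = ⟨bar ψ v, (ψ ⟨v, 0⟩).a⟩ := rfl
  rw [h, phi_mk]
  rfl

theorem sq_eq_mk (x : TE s) : x * x = ⟨0, beta s x.v x.v⟩ := by
  apply TE.ext
  · exact v_add_self _
  · show x.a + x.a + beta s x.v x.v = beta s x.v x.v
    rw [z2_add_self, zero_add]

theorem bar_q (φ : MulAut (TE s)) (v : Fin n → P) : beta s (bar φ v) (bar φ v) = beta s v v := by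
  have h1 := sq_eq_mk (s := s) ⟨v, 0⟩
  have h2 := congrArg φ h1
  rw [map_mul, phi_central, sq_eq_mk] at h2
  exact congrArg TE.a h2

/-- The alternating part. -/
def cc (x y : P) : ZMod 2 := x.1 * y.2 + y.1 * x.2

theorem c_alt : ∀ (t : Bool) (x y : P), c t x y + c t y x = cc x y := by decide

theorem beta_alt (v w : Fin n → P) : beta s v w + beta s w v = ∑ i, cc (v i) (w i) := by
  unfold beta
  rw [← Finset.sum_add_distrib]
  exact Finset.sum_congr rfl fun i _ => c_alt _ _ _

/-- Additive functionals are given by the alternating form. -/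
theorem exists_dual (lam : (Fin n → P) →+ ZMod 2) : ∃ w : Fin n → P, ∀ v, lam v = beta s w v + beta s v w := by
  classical
  refine ⟨fun i => (lam (Pi.single i (0, 1)), lam (Pi.single i (1, 0))), fun v => ?_⟩
  rw [beta_alt]
  conv_lhs => rw [← Finset.univ_sum_single v]
  rw [map_sum]
  apply Finset.sum_congr rfl
  intro i _
  have h : ∀ (i : Fin n) (p : P), lam (Pi.single i p) = p.1 * lam (Pi.single i (1, 0)) + p.2 * lam (Pi.single i (0, 1)) := by
    intro i p
    have hp : p = (p.1, p.2) := rfl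
    have hsplit : ∀ (a b : ZMod 2), (Pi.single i (a, b) : Fin n → P) = (Pi.single i (a, 0) : Fin n → P) + (Pi.single i (0, b) : Fin n → P) := by
      intro a b
      rw [← Pi.single_add]
      simp
    have hl1 : ∀ a : ZMod 2, lam (Pi.single i (a, 0)) = a * lam (Pi.single i (1, 0)) := by
      intro a
      rcases z2_cases a with rfl | rfl
      · have : (Pi.single i ((0 : ZMod 2), (0 : ZMod 2)) : Fin n → P) = 0 := Pi.single_zero i
        rw [this, map_zero, zero_mul]
      · rw [one_mul]
    have hl2 : ∀ a : ZMod 2, lam (Pi.single i (0, a)) = a * lam (Pi.single i (0, 1)) := by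
      intro a
      rcases z2_cases a with rfl | rfl
      · have : (Pi.single i ((0 : ZMod 2), (0 : ZMod 2)) : Fin n → P) = 0 := Pi.single_zero i
        rw [this, map_zero, zero_mul]
      · rw [one_mul]
    conv_lhs => rw [hp, hsplit, map_add, hl1, hl2]
  rw [h]
  show _ = (lam (Pi.single i (0, 1))) * (v i).2 + (v i).1 * (lam (Pi.single i (1, 0)))
  ring

/-- Automorphisms acting trivially on the quotient are inner. -/
theorem inner_of_bar (φ : MulAut (TE s)) (h : ∀ v, bar φ v = v) : φ ∈ Inn (TE s) := by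
  let lam : (Fin n → P) →+ ZMod 2 :=
    { toFun := fun v => (φ ⟨v, 0⟩).a
      map_zero' := by
        have := phi_central φ 0
        exact congrArg TE.a this
      map_add' := by
        intro v w
        have e : (⟨v + w, 0⟩ : TE s) = ⟨v, 0⟩ * ⟨w, 0⟩ * ⟨0, beta s v w⟩ := by
          rw [mk_mul_central]
          apply TE.ext
          · rfl
          · show (0 : ZMod 2) = (0 + 0 + beta s v w) + beta s v w
            rw [zero_add, zero_add, z2_add_self]
        have e1 : (φ ⟨v + w, 0⟩).a = (φ ⟨v, 0⟩).a + (φ ⟨w, 0⟩).a + beta s (φ ⟨v, 0⟩).v (φ ⟨w, 0⟩).v + beta s v w := by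
          rw [e, map_mul, map_mul, phi_central, mk_mul_central]
          rfl
        have e2 : (φ ⟨v, 0⟩).v = v := h v
        have e3 : (φ ⟨w, 0⟩).v = w := h w
        rw [e1, e2, e3, add_assoc _ (beta s v w), z2_add_self, add_zero] }
  obtain ⟨w, hw⟩ := exists_dual (s := s) lam
  refine ⟨⟨w, 0⟩, ?_⟩
  ext1 x
  rw [MulAut.conj_apply]
  -- the conjugation formula
  have hx : φ x = ⟨x.v, x.a + (beta s w x.v + beta s x.v w)⟩ := by
    have := phi_mk φ x.v x.a
    have e0 : (⟨x.v, x.a⟩ : TE s) = x := rfl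
    rw [e0] at this
    rw [this]
    apply TE.ext
    · exact h _
    · show (φ ⟨x.v, 0⟩).a + x.a = x.a + (beta s w x.v + beta s x.v w)
      rw [← hw]
      show lam x.v + x.a = _
      rw [add_comm]
  rw [hx, mul_inv_eq_iff_eq_mul]
  apply TE.ext
  · show w + x.v = x.v + w
    exact add_comm _ _
  · show 0 + x.a + beta s w x.v = (x.a + (beta s w x.v + beta s x.v w)) + 0 + beta s x.v w
    have key : ∀ a p q : ZMod 2, 0 + a + p = a + (p + q) + 0 + q := by decide
    exact key _ _ _

/-- Inner automorphisms act trivially on the quotient. -/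
theorem bar_of_inner {φ : MulAut (TE s)} (h : φ ∈ Inn (TE s)) (v : Fin n → P) : bar φ v = v := by
  obtain ⟨g, rfl⟩ := h
  show (g * ⟨v, 0⟩ * g⁻¹).v = v
  show g.v + v + g.v = v
  rw [add_comm g.v v, add_assoc, v_add_self, add_zero]

/-- Lifting an isometry. -/
theorem exists_lift (g : (Fin n → P) ≃+ (Fin n → P)) (hg : ∀ v, beta s (g v) (g v) = beta s v v) :
    ∃ φ : MulAut (TE s), ∀ v, bar φ v = g v := by
  have hq : ∀ v w, beta s v w + beta s w v = beta s (v + w) (v + w) + beta s v v + beta s w w := by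
    intro v w
    rw [beta_add_l, beta_add_r, beta_add_r]
    have key : ∀ a b c d : ZMod 2, b + c = a + b + (c + d) + a + d := by decide
    exact key _ _ _ _
  have hsym : ∀ v w, beta s (g v) (g w) + beta s (g w) (g v) = beta s v w + beta s w v := by
    intro v w
    rw [hq, hq v w, ← map_add, hg, hg, hg]
  let D : (Fin n → P) → (Fin n → P) → ZMod 2 := fun v w => beta s v w + beta s (g v) (g w)
  obtain ⟨γ, hγ⟩ := exists_gamma (D := D)
    (by
      intro u v w
      show beta s (u + v) w + beta s (g (u + v)) (g w) = _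
      show _ = (beta s u w + beta s (g u) (g w)) + (beta s v w + beta s (g v) (g w))
      rw [map_add, beta_add_l, beta_add_l]
      ring)
    (by
      intro u v w
      show beta s u (v + w) + beta s (g u) (g (v + w)) = _
      show _ = (beta s u v + beta s (g u) (g v)) + (beta s u w + beta s (g u) (g w))
      rw [map_add, beta_add_r, beta_add_r]
      ring)
    (by
      intro v w
      show beta s v w + beta s (g v) (g w) = beta s w v + beta s (g w) (g v)
      have := hsym v w
      have key : ∀ a b c d : ZMod 2, c + d = a + b → a + c = b + d := by decide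
      exact key _ _ _ _ this)
    (by
      intro v
      show beta s v v + beta s (g v) (g v) = 0
      rw [hg, z2_add_self])
  let f : TE s →* TE s :=
    { toFun := fun x => ⟨g x.v, x.a + γ x.v⟩
      map_one' := by
        apply TE.ext
        · exact map_zero g
        · show (0 : ZMod 2) + γ 0 = 0
          have := hγ 0 0
          rw [add_zero] at this
          have h0 : D 0 0 = 0 := by
            show beta s 0 0 + beta s (g 0) (g 0) = 0
            rw [hg, z2_add_self]
          rw [h0, add_zero] at this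
          have h2 : ∀ a : ZMod 2, a = a + a → a = 0 := by decide
          rw [h2 _ this, add_zero]
      map_mul' := by
        intro x y
        apply TE.ext
        · exact map_add g _ _
        · show x.a + y.a + beta s x.v y.v + γ (x.v + y.v) = (x.a + γ x.v) + (y.a + γ y.v) + beta s (g x.v) (g y.v)
          rw [hγ]
          show x.a + y.a + beta s x.v y.v + (γ x.v + γ y.v + (beta s x.v y.v + beta s (g x.v) (g y.v))) = _
          have key : ∀ a b p q r t : ZMod 2, a + b + p + (q + r + (p + t)) = a + q + (b + r) + t := by decide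
          exact key _ _ _ _ _ _ }
  have hinj : Function.Injective f := by
    intro x y hxy
    have h1 : g x.v = g y.v := congrArg TE.v hxy
    have h2 : x.v = y.v := g.injective h1
    have h3 : x.a + γ x.v = y.a + γ y.v := congrArg TE.a hxy
    rw [h2] at h3
    exact TE.ext h2 (add_right_cancel h3)
  have hbij : Function.Bijective f := ⟨hinj, Finite.surjective_of_injective hinj⟩
  refine ⟨MulEquiv.ofBijective f hbij, fun v => rfl⟩

end aut

/-! ### The isometry group of the standard form -/

section iso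

variable {n : ℕ} {s : Fin n → Bool} {J : Type} [Fintype J] [DecidableEq J]
  {Q : (J → ZMod 2) → ZMod 2} (L : (J → ZMod 2) ≃+ (Fin n → P)) (hQ : ∀ v, Q v = beta s (L v) (L v))

/-- The additive map on coordinates. -/
def AA (φ : MulAut (TE s)) : (J → ZMod 2) →+ (J → ZMod 2) :=
  { toFun := fun v => L.symm (bar φ (L v))
    map_zero' := by
      have h0 : bar φ 0 = 0 := by
        have := bar_add φ 0 0
        rw [add_zero] at this
        exact left_eq_add.1 this
      rw [map_zero, h0, map_zero]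
    map_add' := by
      intro v w
      rw [map_add, bar_add, map_add] }

/-- Its matrix. -/
noncomputable def MM (φ : MulAut (TE s)) : Matrix J J (ZMod 2) :=
  LinearMap.toMatrix' ((AA L φ).toZModLinearMap 2)

theorem MM_mulVec (φ : MulAut (TE s)) (v : J → ZMod 2) : MM L φ *ᵥ v = L.symm (bar φ (L v)) := by
  unfold MM
  rw [LinearMap.toMatrix'_mulVec]
  rfl

theorem mat_ext {A B : Matrix J J (ZMod 2)} (h : ∀ v, A *ᵥ v = B *ᵥ v) : A = B := by
  ext i j
  have := congrFun (h (Pi.single j 1)) i
  simpa [Matrix.mulVec_single_one] using this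

theorem MM_mul (φ ψ : MulAut (TE s)) : MM L (φ * ψ) = MM L φ * MM L ψ := by
  apply mat_ext
  intro v
  rw [← Matrix.mulVec_mulVec, MM_mulVec, MM_mulVec, MM_mulVec, bar_mul, AddEquiv.apply_symm_apply]

theorem MM_one : MM L (1 : MulAut (TE s)) = 1 := by
  apply mat_ext
  intro v
  rw [MM_mulVec, Matrix.one_mulVec, bar_one, AddEquiv.symm_apply_apply]

/-- The hom to the isometry group. -/
noncomputable def PsiHom : MulAut (TE s) →* Matrix.GeneralLinearGroup J (ZMod 2) where
  toFun φ := ⟨MM L φ, MM L φ⁻¹, by rw [← MM_mul, mul_inv_cancel, MM_one], by rw [← MM_mul, inv_mul_cancel, MM_one]⟩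
  map_one' := by
    apply Units.ext
    exact MM_one L
  map_mul' φ ψ := by
    apply Units.ext
    exact MM_mul L φ ψ

include hQ in
theorem PsiHom_mem (φ : MulAut (TE s)) : PsiHom L φ ∈ isometryGroup (ZMod 2) Q := by
  intro u v
  show Q (MM L φ *ᵥ u) = Q u
  rw [MM_mulVec, hQ, hQ, AddEquiv.apply_symm_apply, bar_q]

/-- The hom to the isometry group. -/
noncomputable def Psi : MulAut (TE s) →* isometryGroup (ZMod 2) Q :=
  (PsiHom L).codRestrict _ (PsiHom_mem L hQ)

include hQ in
theorem Psi_surjective : Function.Surjective (Psi L hQ) := by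
  rintro ⟨h, hh⟩
  have hinv : ∀ (g : Matrix.GeneralLinearGroup J (ZMod 2)) (v : J → ZMod 2),
      ((g⁻¹ : Matrix.GeneralLinearGroup J (ZMod 2)) : Matrix J J (ZMod 2)) *ᵥ
        ((g : Matrix.GeneralLinearGroup J (ZMod 2)) : Matrix J J (ZMod 2)) *ᵥ v = v := by
    intro g v
    rw [Matrix.mulVec_mulVec, ← Units.val_mul, inv_mul_cancel]
    simp
  have hinv' : ∀ (g : Matrix.GeneralLinearGroup J (ZMod 2)) (v : J → ZMod 2),
      ((g : Matrix.GeneralLinearGroup J (ZMod 2)) : Matrix J J (ZMod 2)) *ᵥ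
        ((g⁻¹ : Matrix.GeneralLinearGroup J (ZMod 2)) : Matrix J J (ZMod 2)) *ᵥ v = v := by
    intro g v
    rw [Matrix.mulVec_mulVec, ← Units.val_mul, mul_inv_cancel]
    simp
  let g : (Fin n → P) ≃+ (Fin n → P) :=
    { toFun := fun v => L (((h : Matrix.GeneralLinearGroup J (ZMod 2)) : Matrix J J (ZMod 2)) *ᵥ L.symm v)
      invFun := fun v => L (((h⁻¹ : Matrix.GeneralLinearGroup J (ZMod 2)) : Matrix J J (ZMod 2)) *ᵥ L.symm v)
      left_inv := by
        intro v
        simp only [AddEquiv.symm_apply_apply, hinv, AddEquiv.apply_symm_apply]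
      right_inv := by
        intro v
        simp only [AddEquiv.symm_apply_apply, hinv', AddEquiv.apply_symm_apply]
      map_add' := by
        intro v w
        simp only [map_add, Matrix.mulVec_add] }
  have hg : ∀ v, beta s (g v) (g v) = beta s v v := by
    intro v
    have h1 : Q (((h : Matrix.GeneralLinearGroup J (ZMod 2)) : Matrix J J (ZMod 2)) *ᵥ L.symm v) = Q (L.symm v) := hh _ (L.symm v)
    rw [hQ, hQ, AddEquiv.apply_symm_apply] at h1
    exact h1
  obtain ⟨φ, hφ⟩ := exists_lift g hg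
  refine ⟨φ, ?_⟩
  apply Subtype.ext
  apply Units.ext
  apply mat_ext
  intro v
  show MM L φ *ᵥ v = _
  rw [MM_mulVec, hφ]
  show L.symm (L (_ *ᵥ L.symm (L v))) = _
  simp only [AddEquiv.symm_apply_apply]

include hQ in
theorem Psi_ker : (Psi L hQ).ker = Inn (TE s) := by
  ext φ
  rw [MonoidHom.mem_ker]
  constructor
  · intro h
    apply inner_of_bar
    intro v
    have h1 : MM L φ = 1 := by
      have := congrArg (fun g : isometryGroup (ZMod 2) Q => ((g : Matrix.GeneralLinearGroup J (ZMod 2)) : Matrix J J (ZMod 2))) h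
      exact this
    have h2 := MM_mulVec L φ (L.symm v)
    rw [h1, Matrix.one_mulVec, AddEquiv.apply_symm_apply] at h2
    have h3 := congrArg L h2
    rw [AddEquiv.apply_symm_apply, AddEquiv.apply_symm_apply] at h3
    exact h3.symm
  · intro h
    apply Subtype.ext
    apply Units.ext
    apply mat_ext
    intro v
    show MM L φ *ᵥ v = (1 : Matrix J J (ZMod 2)) *ᵥ v
    rw [MM_mulVec, bar_of_inner h, AddEquiv.symm_apply_apply, Matrix.one_mulVec]

include hQ in
/-- The outer automorphism group. -/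
theorem out_equiv : Nonempty (Out (TE s) ≃* isometryGroup (ZMod 2) Q) :=
  ⟨(QuotientGroup.quotientMulEquivOfEq (Psi_ker L hQ).symm).trans
    (QuotientGroup.quotientKerEquivOfSurjective _ (Psi_surjective L hQ))⟩

end iso

/-- Transport of `Out`. -/
theorem out_congr {E T : Type*} [Group E] [Group T] (f : E ≃* T) : Nonempty (Out E ≃* Out T) := by
  refine ⟨QuotientGroup.congr _ _ (MulAut.congr f) ?_⟩
  ext φ
  constructor
  · rintro ⟨_, ⟨g, rfl⟩, rfl⟩
    refine ⟨f g, ?_⟩
    ext x
    simp [MulAut.congr, MulAut.conj_apply]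
  · rintro ⟨t, rfl⟩
    refine ⟨MulAut.conj (f.symm t), ⟨f.symm t, rfl⟩, ?_⟩
    ext x
    simp [MulAut.congr, MulAut.conj_apply]

/-! ### The main theorem -/

theorem beta_false {n : ℕ} (v w : Fin n → P) : beta (fun _ => false) v w = ∑ i, (v i).1 * (w i).2 := rfl

/-- Coordinates for the hyperbolic form. -/
def Lplus (n : ℕ) : (Fin n ⊕ Fin n → ZMod 2) ≃+ (Fin n → P) where
  toFun v := fun i => (v (.inl i), v (.inr i))
  invFun w := Sum.elim (fun i => (w i).1) (fun i => (w i).2)
  left_inv v := by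
    funext x
    rcases x with i | i <;> rfl
  right_inv w := rfl
  map_add' v w := rfl

theorem Lplus_Q (n : ℕ) (v : Fin n ⊕ Fin n → ZMod 2) :
    quadFormPlus n (ZMod 2) v = beta (fun _ => false) (Lplus n v) (Lplus n v) := rfl

/-- The elliptic signature. -/
def sMinus (m : ℕ) : Fin (m + 1) → Bool := Fin.cases true (fun _ => false)

/-- Coordinates for the elliptic form. -/
def Lminus (m : ℕ) : ((Fin m ⊕ Fin m) ⊕ Fin 2 → ZMod 2) ≃+ (Fin (m + 1) → P) where
  toFun v := Fin.cons (v (.inr 0), v (.inr 1)) (fun i => (v (.inl (.inl i)), v (.inl (.inr i))))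
  invFun w := Sum.elim (Sum.elim (fun i => (w i.succ).1) (fun i => (w i.succ).2)) ![(w 0).1, (w 0).2]
  left_inv v := by
    funext x
    rcases x with (i | i) | i
    · rfl
    · rfl
    · fin_cases i <;> rfl
  right_inv w := by
    funext i
    refine Fin.cases ?_ (fun j => ?_) i
    · rfl
    · rfl
  map_add' v w := by
    funext i
    refine Fin.cases ?_ (fun j => ?_) i
    · rfl
    · rfl

theorem Lminus_Q (m : ℕ) (v : (Fin m ⊕ Fin m) ⊕ Fin 2 → ZMod 2) :
    quadFormMinus m (ZMod 2) 1 1 v = beta (sMinus m) (Lminus m v) (Lminus m v) := by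
  unfold quadFormMinus beta
  rw [Fin.sum_univ_succ]
  have h0 : c (sMinus m 0) (Lminus m v 0) (Lminus m v 0) =
      v (.inr 0) * v (.inr 1) + v (.inr 0) * v (.inr 0) + v (.inr 1) * v (.inr 1) := rfl
  have h1 : ∀ i : Fin m, c (sMinus m i.succ) (Lminus m v i.succ) (Lminus m v i.succ) =
      v (.inl (.inl i)) * v (.inl (.inr i)) := fun i => rfl
  rw [h0]
  simp only [h1]
  ring

/-- Count for the plus model. -/
theorem TE_plus_count (n : ℕ) (hn : 1 ≤ n) :
    Nat.card {x : TE (fun _ : Fin n => false) // x ^ 2 = 1} = 2 ^ (2 * n) + 2 ^ n := by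
  have hc := count_eq (fun _ : Fin n => false)
  have h2 : (0 : ℤ) < ∏ i : Fin n, kappa ((fun _ : Fin n => false) i) := by
    apply Finset.prod_pos
    intro i _
    show 0 < kappa false
    rw [kappa_false]; norm_num
  have : ((2 ^ (2 * n) : ℕ) : ℤ) < (Nat.card {x : TE (fun _ : Fin n => false) // x ^ 2 = 1} : ℤ) := by
    rw [hc]; push_cast; linarith
  have h3 : 2 ^ (2 * n) < Nat.card {x : TE (fun _ : Fin n => false) // x ^ 2 = 1} := by exact_mod_cast this
  rcases Cfsg.Agent.Lib.Basic.extraspecial2_rank_cases (isExtraspecial_TE _ hn) n (card_TE _) with ⟨h, -⟩ | ⟨h, -⟩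
  · exact h
  · rw [h] at h3
    exact absurd h3 (not_lt.2 (Nat.sub_le _ _))

/-- Count for the minus model. -/
theorem TE_minus_count (m : ℕ) :
    Nat.card {x : TE (sMinus m) // x ^ 2 = 1} = 2 ^ (2 * (m + 1)) - 2 ^ (m + 1) := by
  have hc := count_eq (sMinus m)
  have h2 : ∏ i, kappa (sMinus m i) < (0 : ℤ) := by
    rw [Fin.prod_univ_succ]
    have h3 : (0 : ℤ) < ∏ i : Fin m, kappa (sMinus m i.succ) := by
      apply Finset.prod_pos
      intro i _
      show 0 < kappa false
      rw [kappa_false]; norm_num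
    have h4 : kappa (sMinus m 0) = -2 := kappa_true
    rw [h4]
    linarith
  have : (Nat.card {x : TE (sMinus m) // x ^ 2 = 1} : ℤ) < ((2 ^ (2 * (m + 1)) : ℕ) : ℤ) := by
    rw [hc]; push_cast; linarith
  have h3 : Nat.card {x : TE (sMinus m) // x ^ 2 = 1} < 2 ^ (2 * (m + 1)) := by exact_mod_cast this
  rcases Cfsg.Agent.Lib.Basic.extraspecial2_rank_cases (isExtraspecial_TE _ (by omega)) (m + 1) (card_TE _) with ⟨h, -⟩ | ⟨h, -⟩
  · rw [h] at h3
    exact absurd h3 (not_lt.2 (Nat.le_add_right _ _))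
  · exact h

/-- The outer automorphism group of an extraspecial 2-group. -/
theorem out_main {E : Type*} [Group E] [Finite E] (hE : IsExtraspecial 2 E) (n : ℕ) (hn : 1 ≤ n)
    (hcard : Nat.card E = 2 ^ (2 * n + 1)) :
    ((∃ A : Subgroup E, IsElementaryAbelian 2 A ∧ Nat.card ↥A = 2 ^ (n + 1)) →
      Nonempty (Out E ≃* isometryGroup (ZMod 2) (quadFormPlus n (ZMod 2)))) ∧
    ((¬ ∃ A : Subgroup E, IsElementaryAbelian 2 A ∧ Nat.card ↥A = 2 ^ (n + 1)) →
      Nonempty (Out E ≃* isometryGroup (ZMod 2) (quadFormMinus (n - 1) (ZMod 2) 1 1))) := by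
  have hcases := Cfsg.Agent.Lib.Basic.extraspecial2_rank_cases hE n hcard
  have hpos : 0 < 2 ^ n := by positivity
  constructor
  · rintro ⟨A, ⟨hA1, hA2⟩, hA3⟩
    have hcount : Nat.card {x : E // x ^ 2 = 1} = 2 ^ (2 * n) + 2 ^ n := by
      rcases hcases with ⟨h, -⟩ | ⟨-, h, -⟩
      · exact h
      · have := h A hA1 hA2
        rw [hA3, pow_succ] at this
        omega
    obtain ⟨f⟩ := Cfsg.Agent.Lib.Basic.extraspecial2_iso hE (isExtraspecial_TE (fun _ : Fin n => false) hn)
      (by rw [hcard, card_TE]) (by rw [hcount, TE_plus_count n hn])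
    obtain ⟨e1⟩ := out_congr f
    obtain ⟨e2⟩ := out_equiv (Lplus n) (Lplus_Q n)
    exact ⟨e1.trans e2⟩
  · intro hno
    obtain ⟨m, rfl⟩ : ∃ m, n = m + 1 := ⟨n - 1, by omega⟩
    have hcount : Nat.card {x : E // x ^ 2 = 1} = 2 ^ (2 * (m + 1)) - 2 ^ (m + 1) := by
      rcases hcases with ⟨-, h1, h2⟩ | ⟨h, -⟩
      · exfalso
        unfold PRankLE at h2
        push Not at h2
        obtain ⟨A, hA1, hA2, hA3⟩ := h2
        have hdvd : Nat.card A ∣ 2 ^ (2 * (m + 1) + 1) := by
          rw [← hcard]; exact Subgroup.card_subgroup_dvd_card A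
        obtain ⟨j, -, hj⟩ := (Nat.dvd_prime_pow Nat.prime_two).1 hdvd
        have hle := h1 A hA1 hA2
        rw [hj] at hle hA3
        have h3 : j ≤ m + 1 + 1 := (Nat.pow_le_pow_iff_right (by norm_num)).1 hle
        have h4 : m + 1 < j := (Nat.pow_lt_pow_iff_right (by norm_num)).1 hA3
        have h5 : j = m + 1 + 1 := by omega
        exact hno ⟨A, ⟨hA1, hA2⟩, by rw [hj, h5]⟩
      · exact h
    obtain ⟨f⟩ := Cfsg.Agent.Lib.Basic.extraspecial2_iso hE (isExtraspecial_TE (sMinus m) hn)
      (by rw [hcard, card_TE]) (by rw [hcount, TE_minus_count])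
    obtain ⟨e1⟩ := out_congr f
    obtain ⟨e2⟩ := out_equiv (Lminus m) (Lminus_Q m)
    exact ⟨e1.trans e2⟩

end Cfsg.Agent.Lib.ThreeTrans.ES2
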